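import Mathlib

/-! Finite checks on linear maps of `F₂⁴`, coded by natural numbers below `16`. -/

set_option autoImplicit false

namespace Cfsg.Agent.Lib.FourMoved

/-- The linear map with prescribed images of the four basis vectors. -/
def lin (i0 i1 i2 i3 v : ℕ) : ℕ := (v % 2 * i0) ^^^ (v / 2 % 2 * i1) ^^^ (v / 4 % 2 * i2) ^^^ (v / 8 % 2 * i3)

/-- A map `x` moving exactly the span of the first two vectors. -/
def gx (s1 s2 : ℕ) : ℕ → ℕ := lin 2 3 (4 ^^^ s1) (8 ^^^ s2)

/-- A map `y` moving exactly the span of the last two vectors. -/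
def gy (t1 t2 : ℕ) : ℕ → ℕ := lin (1 ^^^ (4 * t1)) (2 ^^^ (4 * t2)) 8 12

/-- The action of a word (`true` is `x`). -/
def word (x y : ℕ → ℕ) (w : List Bool) (v : ℕ) : ℕ := w.foldr (fun b u => if b then x u else y u) v

def it (f : ℕ → ℕ) : ℕ → ℕ → ℕ
  | 0, v => v
  | k + 1, v => it f k (f v)

def words : List (List Bool) :=
  [[true, false], [true, true, false], [true, true, false, true, false, true, false, false]]

theorem disjoint_dec : ∀ s1 s2 t1 t2 : Fin 4, (s1.val ≠ 0 ∨ s2.val ≠ 0) →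
    ∃ w ∈ words, ∃ k : Fin 4, (∃ v : Fin 16, it (word (gx s1 s2) (gy t1 t2) w) k v ≠ v) ∧
      ∀ v : Fin 16, it (word (gx s1 s2) (gy t1 t2) w) (2 * k.val) v = v := by
  decide +kernel

/-- The maps in the case of two planes of a three-space meeting in the first vector. -/
def mx (s : ℕ) : ℕ → ℕ := lin 2 3 (4 ^^^ s) 0

def my (i j : ℕ) : ℕ → ℕ := lin 4 (2 ^^^ (i + 4 * j)) 5 0

def words3 : List (List Bool) := [[true, false], [true, true, false, true, false, false]]

theorem meet_dec : ∀ (s : Fin 4) (i j : Fin 2),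
    ∃ w ∈ words3, ∃ v : Fin 8, it (word (mx s) (my i j) w) 9 v ≠ v := by
  decide +kernel

theorem xor_bit : ∀ v w : Fin 16, ∀ k : Fin 4,
    (v.val ^^^ w.val) / 2 ^ k.val % 2 = (v.val / 2 ^ k.val % 2 + w.val / 2 ^ k.val % 2) % 2 := by
  decide +kernel

end Cfsg.Agent.Lib.FourMoved
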