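import Mathlib
import Cfsg.Agent.Lib.FourMoved.Decide

/-! Operators of order three on an elementary abelian `2`-group which move only a four-group. -/

set_option autoImplicit false
open Subgroup

namespace Cfsg.Agent.Lib.FourMoved

variable {M : Type*} [CommGroup M] {J : Type*} [Group J] (φ : J →* MulAut M)

/-- The part of `M` moved by `x`. -/
def mv (x : J) : Subgroup M := ((φ x).toMonoidHom * MonoidHom.id M).range

structure Four (x : J) : Prop where
  cube : φ x ^ 3 = 1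
  card : Nat.card ↥(mv φ x) = 4

variable {φ} (he : ∀ m : M, m * m = 1)

theorem mem_mv (x : J) (m : M) : φ x m * m ∈ mv φ x := ⟨m, rfl⟩

theorem mv_map (g x : J) : mv φ (g * x * g⁻¹) = (mv φ x).map (φ g).toMonoidHom := by
  ext m
  constructor
  · rintro ⟨k, rfl⟩
    refine ⟨φ x ((φ g)⁻¹ k) * (φ g)⁻¹ k, mem_mv x _, ?_⟩
    simp [map_mul, map_inv]
  · rintro ⟨_, ⟨k, rfl⟩, rfl⟩
    refine ⟨φ g k, ?_⟩
    simp [map_mul, map_inv]

include he in
theorem apply_mem_of_mv_le (x : J) {U : Subgroup M} (h : mv φ x ≤ U) {m : M} (hm : m ∈ U) : φ x m ∈ U := by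
  have h2 := U.mul_mem (h (mem_mv x m)) hm
  rwa [mul_assoc, he, mul_one] at h2

include he in
theorem Four.eq_one {x : J} (hx : Four φ x) {w : M} (hw : w ∈ mv φ x) (hfix : φ x w = w) : w = 1 := by
  obtain ⟨m, rfl⟩ := hw
  change φ x (φ x m * m) = φ x m * m at hfix
  show φ x m * m = 1
  have h3 : φ x (φ x (φ x m)) = m := DFunLike.congr_fun hx.cube m
  rw [map_mul] at hfix
  have h2 : φ x (φ x m) = m := by
    have := congrArg (· * φ x m) hfix
    simp only [mul_assoc, he, mul_one] at this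
    rw [this, mul_comm m, ← mul_assoc, he, one_mul]
  have h4 : φ x m = m := (congrArg (φ x) h2).symm.trans h3
  rw [h4, he]

include he in
theorem Four.sum {x : J} (hx : Four φ x) {w : M} (hw : w ∈ mv φ x) : φ x (φ x w) = w * φ x w := by
  have h3 : φ x (φ x (φ x w)) = w := DFunLike.congr_fun hx.cube w
  have hmem : φ x w ∈ mv φ x := apply_mem_of_mv_le he x le_rfl hw
  have h1 : φ x (φ x w) * φ x w * w = 1 := by
    refine hx.eq_one he (mul_mem (mul_mem (apply_mem_of_mv_le he x le_rfl hmem) hmem) hw) ?_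
    rw [map_mul, map_mul, h3]
    ac_rfl
  have h5 := congrArg (· * (w * φ x w)) h1
  simp only [one_mul] at h5
  calc φ x (φ x w) = φ x (φ x w) * (φ x w * φ x w) * (w * w) := by rw [he, he, mul_one, mul_one]
    _ = φ x (φ x w) * φ x w * w * (w * φ x w) := by ac_rfl
    _ = w * φ x w := h5

theorem Four.finite {x : J} (hx : Four φ x) : Finite ↥(mv φ x) := Nat.finite_of_card_ne_zero (by rw [hx.card]; norm_num)

theorem Four.exists_ne_one {x : J} (hx : Four φ x) : ∃ w ∈ mv φ x, w ≠ 1 := by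
  have hne : mv φ x ≠ ⊥ := fun h => by
    have := hx.card
    rw [h, card_bot] at this
    omega
  exact (bot_or_exists_ne_one _).resolve_left hne

include he in
/-- The four elements of the moved part. -/
theorem Four.elems {x : J} (hx : Four φ x) {w : M} (hw : w ∈ mv φ x) (hw1 : w ≠ 1) {u : M}
    (hu : u ∈ mv φ x) : u = 1 ∨ u = w ∨ u = φ x w ∨ u = w * φ x w := by
  classical
  have := hx.finite
  let _ := Fintype.ofFinite ↥(mv φ x)
  have hxw : φ x w ∈ mv φ x := apply_mem_of_mv_le he x le_rfl hw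
  have hne : φ x w ≠ w := fun h => hw1 (hx.eq_one he hw h)
  have hxw1 : φ x w ≠ 1 := fun h => hw1 (by simpa using h)
  have hp : w * φ x w ≠ 1 := fun h => hne (by
    have h' := congrArg (w * ·) h
    simpa [← mul_assoc, he] using h')
  by_contra hcon
  push Not at hcon
  let f : Fin 5 → ↥(mv φ x) := ![1, ⟨w, hw⟩, ⟨φ x w, hxw⟩, ⟨w * φ x w, mul_mem hw hxw⟩, ⟨u, hu⟩]
  have hwp : w ≠ w * φ x w := fun h => hxw1 (mul_eq_left.1 h.symm)
  have hxp : φ x w ≠ w * φ x w := fun h => hw1 (mul_eq_right.1 h.symm)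
  obtain ⟨c0, c1, c2, c3⟩ := hcon
  have hf : Function.Injective f := by
    intro i j e
    fin_cases i <;> fin_cases j <;>
      first
      | rfl
      | (simp [f, Subtype.ext_iff] at e
         first
         | exact absurd e hw1 | exact absurd e.symm hw1 | exact absurd e hne | exact absurd e.symm hne
         | exact absurd e hxw1 | exact absurd e.symm hxw1 | exact absurd e hp | exact absurd e.symm hp
         | exact absurd e hwp | exact absurd e.symm hwp | exact absurd e hxp | exact absurd e.symm hxp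
         | exact absurd e c0 | exact absurd e.symm c0 | exact absurd e c1 | exact absurd e.symm c1
         | exact absurd e c2 | exact absurd e.symm c2 | exact absurd e c3 | exact absurd e.symm c3
         | simp_all)
  have h := Nat.card_le_card_of_injective f hf
  rw [hx.card, Nat.card_fin] at h
  omega

section Coord

variable (g0 g1 g2 g3 : M)

/-- Coordinates. -/
def co (v : ℕ) : M := g0 ^ (v % 2) * g1 ^ (v / 2 % 2) * g2 ^ (v / 4 % 2) * g3 ^ (v / 8 % 2)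

include he in
theorem co_xor {v w : ℕ} (hv : v < 16) (hw : w < 16) :
    co g0 g1 g2 g3 (v ^^^ w) = co g0 g1 g2 g3 v * co g0 g1 g2 g3 w := by
  have hm : ∀ (g : M) (a b : ℕ), g ^ ((a + b) % 2) = g ^ a * g ^ b := fun g a b => by
    rw [← pow_add, ← pow_eq_pow_mod]
    rw [pow_two, he]
  have h := xor_bit ⟨v, hv⟩ ⟨w, hw⟩
  have h0 : (v ^^^ w) % 2 = (v % 2 + w % 2) % 2 := by
    have e := h 0
    simp only [Fin.val_zero, pow_zero, Nat.div_one] at e
    exact e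
  have h1 : (v ^^^ w) / 2 % 2 = (v / 2 % 2 + w / 2 % 2) % 2 := by simpa using h 1
  have h2 : (v ^^^ w) / 4 % 2 = (v / 4 % 2 + w / 4 % 2) % 2 := h 2
  have h3 : (v ^^^ w) / 8 % 2 = (v / 8 % 2 + w / 8 % 2) % 2 := h 3
  simp only [co, h0, h1, h2, h3, hm]
  ac_rfl

include he in
theorem co_lin {i0 i1 i2 i3 : ℕ} (hi : i0 < 16 ∧ i1 < 16 ∧ i2 < 16 ∧ i3 < 16) (z : MulAut M)
    (h0 : z g0 = co g0 g1 g2 g3 i0) (h1 : z g1 = co g0 g1 g2 g3 i1)
    (h2 : z g2 = co g0 g1 g2 g3 i2) (h3 : z g3 = co g0 g1 g2 g3 i3) (v : ℕ) :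
    lin i0 i1 i2 i3 v < 16 ∧ co g0 g1 g2 g3 (lin i0 i1 i2 i3 v) = z (co g0 g1 g2 g3 v) := by
  obtain ⟨b0, b1, b2, b3⟩ := hi
  have bnd : ∀ (b i : ℕ), i < 16 → b % 2 * i < 16 := fun b i hi => by
    rcases Nat.mod_two_eq_zero_or_one b with e | e <;> simp [e, hi]
  have one : ∀ (b i : ℕ), co g0 g1 g2 g3 (b % 2 * i) = co g0 g1 g2 g3 i ^ (b % 2) := fun b i => by
    rcases Nat.mod_two_eq_zero_or_one b with e | e <;> simp [e, co]
  have c01 := Nat.xor_lt_two_pow (n := 4) (bnd v i0 b0) (bnd (v / 2) i1 b1)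
  have c012 := Nat.xor_lt_two_pow (n := 4) c01 (bnd (v / 4) i2 b2)
  refine ⟨Nat.xor_lt_two_pow (n := 4) c012 (bnd (v / 8) i3 b3), ?_⟩
  rw [lin, co_xor he g0 g1 g2 g3 c012 (bnd _ _ b3), co_xor he g0 g1 g2 g3 c01 (bnd _ _ b2),
    co_xor he g0 g1 g2 g3 (bnd _ _ b0) (bnd _ _ b1), one, one, one, one]
  simp only [co, map_mul, map_pow, h0, h1, h2, h3]

theorem co_word {x y : J} {X Y : ℕ → ℕ}
    (hX : ∀ v, X v < 16 ∧ co g0 g1 g2 g3 (X v) = φ x (co g0 g1 g2 g3 v))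
    (hY : ∀ v, Y v < 16 ∧ co g0 g1 g2 g3 (Y v) = φ y (co g0 g1 g2 g3 v)) (w : List Bool) :
    ∀ v, co g0 g1 g2 g3 (word X Y w v) =
      φ ((w.map fun b => if b then x else y).prod) (co g0 g1 g2 g3 v) := by
  induction w with
  | nil => intro v; simp [word]
  | cons b w ih =>
    intro v
    rw [List.map_cons, List.prod_cons, map_mul, MulAut.mul_apply, ← ih v]
    cases b
    · exact (hY _).2
    · exact (hX _).2

theorem co_it {z : MulAut M} {F : ℕ → ℕ} (hF : ∀ v, co g0 g1 g2 g3 (F v) = z (co g0 g1 g2 g3 v)) :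
    ∀ k v, co g0 g1 g2 g3 (it F k v) = (z ^ k) (co g0 g1 g2 g3 v) := by
  intro k
  induction k with
  | zero => intro v; rfl
  | succ k ih => intro v; rw [it, ih, hF, pow_succ, MulAut.mul_apply]

include he in
theorem co_inj_of_ker {n : ℕ} (hn : n = 8 ∨ n = 16) (hker : ∀ v < n, co g0 g1 g2 g3 v = 1 → v = 0)
    {v w : ℕ} (hv : v < n) (hw : w < n) (h : co g0 g1 g2 g3 v = co g0 g1 g2 g3 w) : v = w := by
  have hlt : v ^^^ w < n := by
    rcases hn with rfl | rfl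
    · exact Nat.xor_lt_two_pow (n := 3) hv hw
    · exact Nat.xor_lt_two_pow (n := 4) hv hw
  have hb : n ≤ 16 := by omega
  have h1 := hker _ hlt (by rw [co_xor he g0 g1 g2 g3 (hv.trans_le hb) (hw.trans_le hb), h, he])
  exact Nat.xor_eq_zero_iff.1 h1

end Coord

theorem word_lt {X Y : ℕ → ℕ} {n : ℕ} (hX : ∀ v, X v < n) (hY : ∀ v, Y v < n) :
    ∀ (w : List Bool) (v : ℕ), v < n → word X Y w v < n := by
  intro w
  induction w with
  | nil => exact fun v hv => hv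
  | cons b w ih => intro v hv; cases b <;> [exact hY _; exact hX _]

theorem it_lt {F : ℕ → ℕ} {n : ℕ} (hF : ∀ v, v < n → F v < n) : ∀ k v, v < n → it F k v < n := by
  intro k
  induction k with
  | zero => exact fun v hv => hv
  | succ k ih => exact fun v hv => ih _ (hF v hv)

include he in
/-- Two four-groups which meet trivially are moved independently inside a group of odd order. -/
theorem fix_of_disjoint [Finite J] (hodd : Odd (Nat.card J)) {x y : J} (hx : Four φ x) (hy : Four φ y)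
    (h : mv φ x ⊓ mv φ y = ⊥) {b : M} (hb : b ∈ mv φ y) : φ x b = b := by
  obtain ⟨a1, ha, ha1⟩ := hx.exists_ne_one
  obtain ⟨a2, ha2⟩ : ∃ t, φ x a1 = t := ⟨_, rfl⟩
  have ha2m : a2 ∈ mv φ x := ha2 ▸ apply_mem_of_mv_le he x le_rfl ha
  by_cases hb1 : b = 1
  · rw [hb1, map_one]
  obtain ⟨b2, hb2⟩ : ∃ t, φ y b = t := ⟨_, rfl⟩
  have hb2m : b2 ∈ mv φ y := hb2 ▸ apply_mem_of_mv_le he y le_rfl hb
  have rep : ∀ {z : J}, Four φ z → ∀ {w : M}, w ∈ mv φ z → w ≠ 1 → ∀ u ∈ mv φ z,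
      ∃ s : Fin 4, u = w ^ (s.val % 2) * φ z w ^ (s.val / 2 % 2) := by
    intro z hz w hw hw1 u hu
    rcases hz.elems he hw hw1 hu with rfl | rfl | rfl | rfl
    · exact ⟨0, by simp⟩
    · exact ⟨1, by simp⟩
    · exact ⟨2, by simp⟩
    · exact ⟨3, by simp⟩
  have ind : ∀ {z : J}, Four φ z → ∀ {w : M}, w ∈ mv φ z → w ≠ 1 → ∀ i j : ℕ, i < 2 → j < 2 →
      w ^ i * φ z w ^ j = 1 → i = 0 ∧ j = 0 := by
    intro z hz w hw hw1 i j hi hj e
    interval_cases i <;> interval_cases j <;> simp_all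
    exact hw1 (hz.eq_one he hw (inv_unique (x := w) e (he w)))
  obtain ⟨s1, hs1⟩ := rep hx ha ha1 _ (mem_mv x b)
  obtain ⟨s2, hs2⟩ := rep hx ha ha1 _ (mem_mv x b2)
  obtain ⟨t1, ht1⟩ := rep hy hb hb1 _ (mem_mv y a1)
  obtain ⟨t2, ht2⟩ := rep hy hb hb1 _ (mem_mv y a2)
  by_cases hs : s1.val = 0
  · have := congrArg (· * b) hs1
    simpa [hs, mul_assoc, he] using this
  exfalso
  obtain ⟨w, hw, k, ⟨v, hv⟩, hk⟩ := disjoint_dec s1 s2 t1 t2 (Or.inl hs)
  have cancel : ∀ {z : J} {m u : M}, φ z m * m = u → φ z m = m * u := fun {z m u} e => by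
    rw [← e, mul_comm (φ z m), ← mul_assoc, he, one_mul]
  have lo : ∀ s : Fin 4, ∀ n : Fin 2, s.val < 16 ∧ (4 * s.val) < 16 ∧ ((4 * (n.val + 1)) ^^^ s.val) < 16 ∧
      ((n.val + 1) ^^^ (4 * s.val)) < 16 := by decide
  have ex : ∀ v, gx s1 s2 v < 16 ∧ co a1 a2 b b2 (gx s1 s2 v) = φ x (co a1 a2 b b2 v) := by
    refine co_lin he _ _ _ _ ⟨by norm_num, by norm_num, (lo s1 0).2.2.1, (lo s2 1).2.2.1⟩ _ ?_ ?_ ?_ ?_
    · simp [co, ha2]
    · rw [← ha2, hx.sum he ha, ha2]; simp [co]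
    · rw [co_xor he _ _ _ _ (by norm_num) (lo s1 0).1, cancel hs1]
      fin_cases s1 <;> simp [co, ha2]
    · rw [co_xor he _ _ _ _ (by norm_num) (lo s2 0).1, cancel hs2]
      fin_cases s2 <;> simp [co, ha2]
  have ey : ∀ v, gy t1 t2 v < 16 ∧ co a1 a2 b b2 (gy t1 t2 v) = φ y (co a1 a2 b b2 v) := by
    refine co_lin he _ _ _ _ ⟨(lo t1 0).2.2.2, (lo t2 1).2.2.2, by norm_num, by norm_num⟩ _ ?_ ?_ ?_ ?_
    · rw [co_xor he _ _ _ _ (by norm_num) (lo t1 0).2.1, cancel ht1]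
      fin_cases t1 <;> simp [co, hb2]
    · rw [co_xor he _ _ _ _ (by norm_num) (lo t2 0).2.1, cancel ht2]
      fin_cases t2 <;> simp [co, hb2]
    · simp [co, hb2]
    · rw [← hb2, hy.sum he hb, hb2]; simp [co]
  have hker : ∀ v < 16, co a1 a2 b b2 v = 1 → v = 0 := by
    intro v hv e
    have hA : a1 ^ (v % 2) * a2 ^ (v / 2 % 2) ∈ mv φ x := mul_mem (pow_mem ha _) (pow_mem ha2m _)
    have hB : b ^ (v / 4 % 2) * b2 ^ (v / 8 % 2) ∈ mv φ y := mul_mem (pow_mem hb _) (pow_mem hb2m _)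
    have e1 : a1 ^ (v % 2) * a2 ^ (v / 2 % 2) * (b ^ (v / 4 % 2) * b2 ^ (v / 8 % 2)) = 1 := by
      rw [← e, co]; ac_rfl
    have e2 : a1 ^ (v % 2) * a2 ^ (v / 2 % 2) = b ^ (v / 4 % 2) * b2 ^ (v / 8 % 2) :=
      inv_unique (x := b ^ (v / 4 % 2) * b2 ^ (v / 8 % 2)) (by rw [mul_comm]; exact e1) (he _)
    have e3 : a1 ^ (v % 2) * a2 ^ (v / 2 % 2) = 1 := mem_bot.1 (h ▸ ⟨hA, e2 ▸ hB⟩)
    obtain ⟨v0, v1⟩ := ind hx ha ha1 _ _ (Nat.mod_lt _ two_pos) (Nat.mod_lt _ two_pos) (ha2.symm ▸ e3)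
    obtain ⟨v2, v3⟩ := ind hy hb hb1 _ _ (Nat.mod_lt _ two_pos) (Nat.mod_lt _ two_pos) (hb2.symm ▸ e2.symm.trans e3)
    omega
  set Fw := word (gx s1 s2) (gy t1 t2) w
  set g := (w.map fun b => if b then x else y).prod
  have hF := co_it (M := M) a1 a2 b b2 (z := φ g) (co_word a1 a2 b b2 ex ey w)
  have hlt := it_lt (F := Fw) (word_lt (fun v => (ex v).1) (fun v => (ey v).1) w)
  have h2 : ∀ u : Fin 16, ((φ g) ^ (2 * k.val)) (co a1 a2 b b2 u) = co a1 a2 b b2 u := fun u => by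
    rw [← hF, hk u]
  obtain ⟨l, hl⟩ := hodd
  apply hv
  refine co_inj_of_ker he a1 a2 b b2 (Or.inr rfl) hker (hlt _ _ v.2) v.2 ?_
  rw [hF]
  have h3 : ∀ i : ℕ, ((φ g) ^ (2 * k.val * i)) (co a1 a2 b b2 v) = co a1 a2 b b2 v := by
    intro i
    induction i with
    | zero => rfl
    | succ i ih => rw [mul_add, mul_one, pow_add, MulAut.mul_apply, h2, ih]
  have h4 : g ^ (2 * l + 1) = 1 := by rw [← hl]; exact pow_card_eq_one'
  have h5 : ((φ g) ^ (k.val * (2 * l + 1))) = 1 := by rw [← map_pow, mul_comm, pow_mul, h4, one_pow, map_one]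
  calc ((φ g) ^ (k.val : ℕ)) (co a1 a2 b b2 v)
      = ((φ g) ^ (k.val : ℕ)) (((φ g) ^ (2 * k.val * l)) (co a1 a2 b b2 v)) := by rw [h3]
    _ = ((φ g) ^ (k.val * (2 * l + 1))) (co a1 a2 b b2 v) := by
      rw [← MulAut.mul_apply, ← pow_add]; ring_nf
    _ = co a1 a2 b b2 v := by rw [h5]; rfl

include he in
/-- In a `3`-group the four-groups cannot meet in two elements. -/
theorem eq_of_meet [Finite J] (hJ : IsPGroup 3 J) {x y : J} (hx : Four φ x) (hy : Four φ y)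
    (h : mv φ x ⊓ mv φ y ≠ ⊥) : mv φ x = mv φ y := by
  have : Finite ↥(mv φ x) := hx.finite
  have : Finite ↥(mv φ y) := hy.finite
  obtain ⟨c, ⟨hcx, hcy⟩, hc1⟩ := (bot_or_exists_ne_one _).resolve_left h
  obtain ⟨a, ha⟩ : ∃ t, φ x c = t := ⟨_, rfl⟩
  obtain ⟨b, hb⟩ : ∃ t, φ y c = t := ⟨_, rfl⟩
  have ham : a ∈ mv φ x := ha ▸ apply_mem_of_mv_le he x le_rfl hcx
  by_contra hne
  have hbx : b ∉ mv φ x := fun hbx => hne ((eq_of_le_of_card_ge (fun u hu => by
    rcases hy.elems he hcy hc1 hu with rfl | rfl | rfl | rfl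
    exacts [one_mem _, hcx, hb.symm ▸ hbx, mul_mem hcx (hb.symm ▸ hbx)]) (by rw [hx.card, hy.card])).symm)
  obtain ⟨s, hs⟩ : ∃ s : Fin 4, φ x b * b = c ^ (s.val % 2) * a ^ (s.val / 2 % 2) := by
    rcases hx.elems he hcx hc1 (mem_mv x b) with e | e | e | e
    exacts [⟨0, by simp [e]⟩, ⟨1, by simp [e]⟩, ⟨2, by simp [e, ← ha]⟩, ⟨3, by simp [e, ← ha]⟩]
  obtain ⟨i, j, ht⟩ : ∃ i j : Fin 2, φ y a * a = c ^ i.val * b ^ j.val := by
    rcases hy.elems he hcy hc1 (mem_mv y a) with e | e | e | e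
    exacts [⟨0, 0, by simp [e]⟩, ⟨1, 0, by simp [e]⟩, ⟨0, 1, by simp [e, ← hb]⟩, ⟨1, 1, by simp [e, ← hb]⟩]
  obtain ⟨w, hw, v, hv⟩ := meet_dec s i j
  have cancel : ∀ {z : J} {m u : M}, φ z m * m = u → φ z m = m * u := fun {z m u} e => by
    rw [← e, mul_comm (φ z m), ← mul_assoc, he, one_mul]
  have lo : ∀ s : Fin 4, ∀ i j : Fin 2, (4 ^^^ s.val) < 8 ∧ (2 ^^^ (i.val + 4 * j.val)) < 8 ∧ s.val < 16 ∧
      i.val + 4 * j.val < 16 := by decide
  have lt8 : ∀ {i0 i1 i2 : ℕ}, i0 < 8 → i1 < 8 → i2 < 8 → ∀ v, lin i0 i1 i2 0 v < 8 := by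
    intro i0 i1 i2 h0 h1 h2 v
    have bnd : ∀ (b i : ℕ), i < 8 → b % 2 * i < 8 := fun b i hi => by
      rcases Nat.mod_two_eq_zero_or_one b with e | e <;> simp [e, hi]
    exact Nat.xor_lt_two_pow (n := 3) (Nat.xor_lt_two_pow (n := 3) (Nat.xor_lt_two_pow (n := 3)
      (bnd _ _ h0) (bnd _ _ h1)) (bnd _ _ h2)) (by simp)
  have ex : ∀ v, mx s v < 16 ∧ co c a b 1 (mx s v) = φ x (co c a b 1 v) := by
    refine co_lin he _ _ _ _ ⟨by norm_num, by norm_num, by linarith [(lo s i j).1], by norm_num⟩ _ ?_ ?_ ?_ ?_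
    · simp [co, ha]
    · rw [← ha, hx.sum he hcx, ha]; simp [co]
    · rw [co_xor he _ _ _ _ (by norm_num) (lo s i j).2.2.1, cancel hs]
      fin_cases s <;> simp [co]
    · simp [co]
  have ey : ∀ v, my i j v < 16 ∧ co c a b 1 (my i j v) = φ y (co c a b 1 v) := by
    refine co_lin he _ _ _ _ ⟨by norm_num, by linarith [(lo s i j).2.1], by norm_num, by norm_num⟩ _ ?_ ?_ ?_ ?_
    · simp [co, hb]
    · rw [co_xor he _ _ _ _ (by norm_num) (lo s i j).2.2.2, cancel ht]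
      fin_cases i <;> fin_cases j <;> simp [co]
    · rw [← hb, hy.sum he hcy, hb]; simp [co]
    · simp [co]
  have hker : ∀ v < 8, co c a b 1 v = 1 → v = 0 := by
    intro v hv e
    have hne' : a ≠ c := fun e' => hc1 (hx.eq_one he hcx (ha.trans e'))
    have ha1 : a ≠ 1 := fun e' => hc1 ((φ x).injective (by rw [ha, e', map_one]))
    have hca : c * a ≠ 1 := fun e' => hne' (inv_unique (x := c) e' (he c))
    have hb' : ∀ u ∈ mv φ x, u * b ≠ 1 := fun u hu e' => hbx (inv_unique (x := u) e' (he u) ▸ hu)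
    interval_cases v <;> simp only [co, Nat.zero_mod, Nat.reduceMod, Nat.reduceDiv, pow_zero, pow_one, one_mul,
      mul_one, one_pow] at e
    · rfl
    · exact absurd e hc1
    · exact absurd e ha1
    · exact absurd e hca
    · exact absurd (by rwa [one_mul]) (hb' 1 (one_mem _))
    · exact absurd e (hb' _ hcx)
    · exact absurd e (hb' _ ham)
    · exact absurd e (hb' _ (mul_mem hcx ham))
  have hex : ∀ v, mx s v < 8 := lt8 (by norm_num) (by norm_num) (lo s i j).1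
  have hey : ∀ v, my i j v < 8 := lt8 (by norm_num) (lo s i j).2.1 (by norm_num)
  set g := (w.map fun b => if b then x else y).prod
  have hF := co_it (M := M) c a b 1 (z := φ g) (co_word c a b 1 ex ey w)
  have hlt := it_lt (F := word (mx s) (my i j) w) (word_lt hex hey w)
  apply hv
  refine co_inj_of_ker he c a b 1 (Or.inl rfl) hker (hlt _ _ v.2) v.2 ?_
  rw [hF]
  -- `φ g` fixes the coordinates after nine steps
  obtain ⟨e, hge⟩ := hJ g
  classical
  let P : Fin 8 → Fin 8 := fun u => ⟨word (mx s) (my i j) w u, word_lt hex hey w u u.2⟩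
  have hP : ∀ (n : ℕ) (u : Fin 8), co c a b 1 (P^[n] u).val = ((φ g) ^ n) (co c a b 1 u) := by
    intro n
    induction n with
    | zero => intro u; rfl
    | succ n ih => intro u; rw [Function.iterate_succ_apply, ih, pow_succ, MulAut.mul_apply, ← co_word c a b 1 ex ey w]
  have hbij : Function.Bijective P := (Finite.injective_iff_bijective).1 fun u u' e' => Fin.ext
    (co_inj_of_ker he c a b 1 (Or.inl rfl) hker u.2 u'.2 ((φ g).injective (by
      rw [← co_word c a b 1 ex ey w, ← co_word c a b 1 ex ey w]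
      exact congrArg (fun t : Fin 8 => co c a b 1 t.val) e')))
  let σ : Equiv.Perm (Fin 8) := Equiv.ofBijective P hbij
  have hσ : ∀ n : ℕ, ⇑(σ ^ n) = P^[n] := fun n => Equiv.Perm.coe_pow σ n
  have h1 : σ ^ 3 ^ e = 1 := Equiv.ext fun u => by
    rw [hσ]
    refine Fin.ext (co_inj_of_ker he c a b 1 (Or.inl rfl) hker (Fin.isLt _) u.2 ?_)
    rw [hP, ← map_pow, hge, map_one]
    rfl
  obtain ⟨k, hk, hok⟩ := (Nat.dvd_prime_pow Nat.prime_three).1 (orderOf_dvd_of_pow_eq_one h1)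
  have h2 : orderOf σ ∣ Nat.card (Equiv.Perm (Fin 8)) := orderOf_dvd_natCard σ
  rw [Nat.card_eq_fintype_card, Fintype.card_perm, Fintype.card_fin, hok] at h2
  have hk2 : k ≤ 2 := by
    by_contra hk3
    have := (pow_dvd_pow 3 (not_le.1 hk3)).trans h2
    norm_num [Nat.factorial] at this
  have h9 : σ ^ 9 = 1 := orderOf_dvd_iff_pow_eq_one.1 (hok ▸ pow_dvd_pow 3 hk2)
  rw [← hP 9 v, ← hσ, h9]
  rfl

end Cfsg.Agent.Lib.FourMoved
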