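import Mathlib
import Cfsg.Agent.Lib.LocalP2.RankTwoGroup

/-! A `3`-group of rank at most two has no nontrivial automorphism of order a power of a prime `p ≥ 5`. -/

set_option autoImplicit false
open Subgroup

namespace Cfsg.Agent.Lib.FourMoved

universe u

theorem eq_one_of_rank_two {T : Type u} [Group T] [Finite T] (hT : IsPGroup 3 T) (hr : Cfsg.PRankLE 3 2 T)
    {p : ℕ} [Fact p.Prime] (hp : 5 ≤ p) (b : MulAut T) {k : ℕ} (hb : b ^ p ^ k = 1) : b = 1 := by
  have : Fact (Nat.Prime 3) := ⟨Nat.prime_three⟩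
  obtain ⟨X, D, hDX, hXc, hDc, -, -, -, hcard, -, hfaith⟩ :=
    LocalP2.RankTwo.exists_char_small (p := 3) (by norm_num) hT hr
  refine hfaith b ?_ ?_
  · refine (Nat.Coprime.coprime_dvd_left (orderOf_dvd_of_pow_eq_one hb) ?_)
    exact Nat.Coprime.pow_left k ((Nat.coprime_primes Fact.out Nat.prime_three).2 (by omega))
  haveI := hXc
  haveI := hDc
  let D' := D.subgroupOf X
  haveI : D'.Normal := (inferInstance : D.Normal).subgroupOf X
  -- the group generated by `b`
  let act : zpowers b → ↥X ⧸ D' → ↥X ⧸ D' := fun g => Quotient.map'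
    (fun x => ⟨(g : MulAut T) x, by
      have := characteristic_iff_le_comap.1 hXc (g : MulAut T) x.2
      exact this⟩)
    (fun x y h => by
      rw [QuotientGroup.leftRel_apply, mem_subgroupOf] at h ⊢
      have := characteristic_iff_le_comap.1 hDc (g : MulAut T) h
      simpa using this)
  have hact : ∀ (g : zpowers b) (x : ↥X), act g (x : ↥X ⧸ D') =
      ((⟨(g : MulAut T) x, characteristic_iff_le_comap.1 hXc (g : MulAut T) x.2⟩ : ↥X) : ↥X ⧸ D') :=
    fun g x => rfl
  letI : MulDistribMulAction (zpowers b) (↥X ⧸ D') :=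
    { smul := act
      one_smul := fun q => QuotientGroup.induction_on q fun x => rfl
      mul_smul := fun g h q => QuotientGroup.induction_on q fun x => rfl
      smul_mul := fun g q r => QuotientGroup.induction_on q fun x => QuotientGroup.induction_on r fun y => by
        show act g _ = act g _ * act g _
        rw [← QuotientGroup.mk_mul, hact, hact, hact, ← QuotientGroup.mk_mul]
        congr 1
        exact Subtype.ext (map_mul _ _ _)
      smul_one := fun g => by
        show act g ((1 : ↥X) : ↥X ⧸ D') = _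
        rw [hact]
        refine (QuotientGroup.eq_one_iff _).2 ?_
        rw [mem_subgroupOf]
        simp }
  have hbp : IsPGroup p (zpowers b) := by
    obtain ⟨a, -, ha⟩ := (Nat.dvd_prime_pow Fact.out).1 (orderOf_dvd_of_pow_eq_one hb)
    exact IsPGroup.of_card ((Nat.card_zpowers b).trans ha)
  set Fx := FixedPoints.subgroup (zpowers b) (α := ↥X ⧸ D')
  have hmod := hbp.card_modEq_card_fixedPoints (α := ↥X ⧸ D')
  have hdvd : Nat.card ↥Fx ∣ Nat.card (↥X ⧸ D') := card_subgroup_dvd_card Fx
  have hle : Nat.card (↥X ⧸ D') ≤ 9 := by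
    have h := card_eq_card_quotient_mul_card_subgroup D'
    rw [Nat.card_congr (subgroupOfEquivOfLe hDX).toEquiv] at h
    have hD := Nat.card_pos (α := ↥D)
    nlinarith
  obtain ⟨j, hj⟩ := IsPGroup.iff_card.1 ((hT.to_subgroup X).to_quotient D')
  have hj2 : j ≤ 2 := by
    rw [hj] at hle
    exact (Nat.pow_le_pow_iff_right (by norm_num : 1 < 3)).1 (hle.trans (by norm_num : 9 ≤ 3 ^ 2))
  rw [hj] at hdvd hmod
  obtain ⟨i, hij, hi⟩ := (Nat.dvd_prime_pow Nat.prime_three).1 hdvd
  have hcard' : Nat.card (MulAction.fixedPoints (zpowers b) (↥X ⧸ D')) = 3 ^ i := hi ▸ rfl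
  rw [hcard'] at hmod
  have hfix : i = j := by
    by_contra hne
    have hlt : i < j := lt_of_le_of_ne hij hne
    have h := (Nat.modEq_iff_dvd' (Nat.pow_le_pow_right (by norm_num : 0 < 3) hij)).1 hmod.symm
    have hp' : p.Prime := Fact.out
    interval_cases j <;> interval_cases i <;> norm_num at h
    all_goals
      have h8 := Nat.le_of_dvd (by norm_num) h
      interval_cases p <;> revert h hp' <;> decide
  intro x hx
  have hall : (⟨x, hx⟩ : ↥X) ∈ (Fx.comap (QuotientGroup.mk' D')) := by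
    have htop : Fx = ⊤ := eq_top_of_card_eq _ (by rw [hi, hfix, hj])
    rw [htop]; exact mem_top _
  have h := (mem_comap.1 hall : ∀ g : zpowers b, g • ((⟨x, hx⟩ : ↥X) : ↥X ⧸ D') = _) ⟨b, mem_zpowers b⟩
  have h' : act ⟨b, mem_zpowers b⟩ ((⟨x, hx⟩ : ↥X) : ↥X ⧸ D') = ((⟨x, hx⟩ : ↥X) : ↥X ⧸ D') := h
  rw [hact] at h'
  have h2 := QuotientGroup.eq.1 h'.symm
  rw [mem_subgroupOf] at h2
  have h3 := (inferInstance : D.Normal).conj_mem _ h2 x
  simpa [mul_assoc] using h3

end Cfsg.Agent.Lib.FourMoved
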