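import Mathlib
import Cfsg.Agent.Lib.FourMoved.Basic

/-! The three-space spanned by two moved four-groups meeting in two elements is invariant. -/

set_option autoImplicit false
open Subgroup

namespace Cfsg.Agent.Lib.FourMoved

variable {M : Type*} [CommGroup M] {J : Type*} [Group J] {φ : J →* MulAut M}

theorem Four.conj {x : J} (hx : Four φ x) (g : J) : Four φ (g * x * g⁻¹) := by
  refine ⟨?_, ?_⟩
  · rw [map_mul, map_mul, map_inv, conj_pow, hx.cube, mul_one, mul_inv_cancel]
  · rw [mv_map, card_map_of_injective (φ g).injective, hx.card]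

variable (he : ∀ m : M, m * m = 1)

include he in
theorem inter_eq {x y : J} (hx : Four φ x) (hy : Four φ y) (hne : mv φ x ≠ mv φ y) {c d : M}
    (hc : c ∈ mv φ x) (hc' : c ∈ mv φ y) (hc1 : c ≠ 1) (hd : d ∈ mv φ x) (hd' : d ∈ mv φ y) :
    d = 1 ∨ d = c := by
  have := hx.finite
  have := hy.finite
  by_contra hcon
  push Not at hcon
  apply hne
  have hle : mv φ x ≤ mv φ y := by
    intro u hu
    rcases hx.elems he hc hc1 hd with e | e | e | e
    · exact absurd e hcon.1
    · exact absurd e hcon.2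
    all_goals
      have hxc : φ x c ∈ mv φ y := by
        first
        | exact e ▸ hd'
        | (have h := (mv φ y).mul_mem hc' (e ▸ hd'); rwa [← mul_assoc, he, one_mul] at h)
      rcases hx.elems he hc hc1 hu with rfl | rfl | rfl | rfl
      exacts [one_mem _, hc', hxc, mul_mem hc' hxc]
  exact eq_of_le_of_card_ge hle (by rw [hx.card, hy.card])

/-- The fixed points of `z`. -/
def fixed (z : J) : Subgroup M := (φ z).toMonoidHom.eqLocus (MonoidHom.id M)

variable [Finite J] [Finite M] (hodd : Odd (Nat.card J))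

include he hodd in
theorem le_fixed {z x : J} (hz : Four φ z) (hx : Four φ x) (h : mv φ z ⊓ mv φ x = ⊥) :
    mv φ x ≤ fixed (φ := φ) z :=
  fun _ hb => fix_of_disjoint he hodd hz hx h hb

include he hodd in
theorem le_fixed_of_mem {x y z : J} (hx : Four φ x) (hy : Four φ y) (hz : Four φ z)
    (hne : mv φ x ≠ mv φ y) {c : M} (hc : c ∈ mv φ x) (hc' : c ∈ mv φ y) (hc1 : c ≠ 1) {l : M}
    (hlx : l ∈ mv φ x) (hl1 : l ≠ 1) (hl : ∀ u ∈ mv φ x ⊔ mv φ y, u ∈ mv φ z → u = 1 ∨ u = l) :
    mv φ x ⊔ mv φ y ≤ fixed (φ := φ) z := by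
  set U := mv φ x ⊔ mv φ y with hU
  have hxU : ∀ {u : M}, u ∈ U → φ x u ∈ U := fun hu => apply_mem_of_mv_le he x le_sup_left hu
  have hcc : φ x c ≠ c := fun h => hc1 (hx.eq_one he hc h)
  have h3 : ∀ u, φ x (φ x (φ x u)) = u := fun u => DFunLike.congr_fun hx.cube u
  have pw : ∀ (i : ℕ) (u : M), φ (x ^ i) u = (⇑(φ x))^[i] u := by
    intro i
    induction i with
    | zero => intro u; simp
    | succ i ih => intro u; rw [pow_succ, map_mul, MulAut.mul_apply, ih, Function.iterate_succ_apply]
  have hit : ∀ (i : ℕ) (u : M), u ∈ U → φ (x ^ i) u ∈ U := by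
    intro i
    induction i with
    | zero => intro u hu; simpa using hu
    | succ i ih => intro u hu; rw [pow_succ, map_mul, MulAut.mul_apply]; exact ih _ (hxU hu)
  -- planes not containing `l` are fixed
  have hplane : ∀ i : ℕ, (⇑(φ x))^[i] c ≠ l → (mv φ y).map (φ (x ^ i)).toMonoidHom ≤ fixed (φ := φ) z := by
    intro i hi
    rw [← mv_map]
    refine le_fixed he hodd hz (hy.conj _) (eq_bot_iff.2 fun u hu => ?_)
    obtain ⟨hu1, hu2⟩ := mem_inf.1 hu
    rw [mv_map] at hu2
    obtain ⟨v, hv, rfl⟩ := mem_map.1 hu2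
    have hvU : (φ (x ^ i)).toMonoidHom v ∈ U := hit i v (mem_sup_right hv)
    rcases hl _ hvU hu1 with e | e
    · rw [mem_bot]; exact e
    · exfalso
      apply hi
      have hvx : v ∈ mv φ x := by
        have h' : (φ x)^[i] v ∈ mv φ x := by rw [← pw]; exact e ▸ hlx
        have : ∀ (n : ℕ) (u : M), (⇑(φ x))^[n] u ∈ mv φ x → u ∈ mv φ x := by
          intro n
          induction n with
          | zero => exact fun u hu => hu
          | succ n ih =>
            intro u hu
            have h1 := ih _ (by rwa [← Function.iterate_succ_apply])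
            rw [← h3 u]
            exact apply_mem_of_mv_le he x le_rfl (apply_mem_of_mv_le he x le_rfl h1)
        exact this i v h'
      rcases inter_eq he hx hy hne hc hc' hc1 hvx hv with rfl | rfl
      · exact absurd (by rw [← e]; exact map_one _) hl1
      · rw [← pw]; exact e
  -- two consecutive planes span
  have hspan : ∀ i : ℕ, (⇑(φ x))^[i] c ≠ l → (⇑(φ x))^[i + 1] c ≠ l → U ≤ fixed (φ := φ) z := by
    intro i h1 h2
    have hs : U.map (φ (x ^ i)).toMonoidHom ≤
        (mv φ y).map (φ (x ^ i)).toMonoidHom ⊔ (mv φ y).map (φ (x ^ (i + 1))).toMonoidHom := by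
      rw [pow_succ, map_mul, show (φ (x ^ i) * φ x).toMonoidHom =
        (φ (x ^ i)).toMonoidHom.comp (φ x).toMonoidHom from rfl, ← Subgroup.map_map, ← Subgroup.map_sup]
      refine Subgroup.map_mono (sup_le (fun u hu => ?_) le_sup_left)
      have e1 : c ∈ mv φ y ⊔ (mv φ y).map (φ x).toMonoidHom := mem_sup_left hc'
      have e2 : φ x c ∈ mv φ y ⊔ (mv φ y).map (φ x).toMonoidHom := mem_sup_right ⟨c, hc', rfl⟩
      rcases hx.elems he hc hc1 hu with rfl | rfl | rfl | rfl
      exacts [one_mem _, e1, e2, mul_mem e1 e2]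
    intro u hu
    refine sup_le (hplane i h1) (hplane (i + 1) h2) (hs ?_)
    have he' : U.map (φ (x ^ i)).toMonoidHom = U := by
      refine eq_of_le_of_card_ge ?_ (by rw [card_map_of_injective (φ (x ^ i)).injective])
      rintro _ ⟨v, hv, rfl⟩
      exact hit i v hv
    rw [he']; exact hu
  rcases hx.elems he hc hc1 hlx with rfl | rfl | rfl | rfl
  · exact absurd rfl hl1
  · exact hspan 1 hcc (by show φ x (φ x l) ≠ l; rw [hx.sum he hc]; exact fun e => hc1 (by
      have h' := congrArg (l * ·) e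
      simp only [← mul_assoc, he, one_mul] at h'
      exact (φ x).injective (by rw [h', map_one])))
  · exact hspan 2 (fun e => hcc ((φ x).injective (e.trans rfl)))
      (by show φ x (φ x (φ x c)) ≠ φ x c; rw [h3]; exact Ne.symm hcc)
  · refine hspan 0 ?_ ?_
    · exact fun e => hc1 ((φ x).injective (by rw [mul_eq_left.1 e.symm, map_one]))
    · exact fun e => hc1 (mul_eq_right.1 e.symm)

include he hodd in
/-- The three-space is invariant. -/
theorem map_space {x y z : J} (hx : Four φ x) (hy : Four φ y) (hz : Four φ z) (hne : mv φ x ≠ mv φ y)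
    (hmeet : mv φ x ⊓ mv φ y ≠ ⊥) :
    (mv φ x ⊔ mv φ y).map (φ z).toMonoidHom = mv φ x ⊔ mv φ y := by
  obtain ⟨c, ⟨hc, hc'⟩, hc1⟩ := (bot_or_exists_ne_one _).resolve_left hmeet
  set U := mv φ x ⊔ mv φ y with hU
  refine eq_of_le_of_card_ge ?_ (by rw [card_map_of_injective (φ z).injective])
  have hfix : U ≤ fixed (φ := φ) z → U.map (φ z).toMonoidHom ≤ U := by
    rintro h _ ⟨u, hu, rfl⟩
    have h' : φ z u = u := h hu
    show φ z u ∈ U
    rwa [h']
  by_cases hbot : mv φ z ⊓ U = ⊥
  · refine hfix (sup_le (le_fixed he hodd hz hx ?_) (le_fixed he hodd hz hy ?_))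
    · exact le_bot_iff.1 ((inf_le_inf_left _ le_sup_left).trans hbot.le)
    · exact le_bot_iff.1 ((inf_le_inf_left _ le_sup_right).trans hbot.le)
  obtain ⟨l, ⟨hlz, hlU⟩, hl1⟩ := (bot_or_exists_ne_one _).resolve_left hbot
  by_cases hone : ∀ u ∈ U, u ∈ mv φ z → u = 1 ∨ u = l
  · refine hfix ?_
    by_cases hlx : l ∈ mv φ x
    · exact le_fixed_of_mem he hodd hx hy hz hne hc hc' hc1 hlx hl1 hone
    by_cases hly : l ∈ mv φ y
    · rw [hU, sup_comm]
      refine le_fixed_of_mem he hodd hy hx hz (Ne.symm hne) hc' hc hc1 hly hl1 ?_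
      intro u hu
      rw [sup_comm] at hu
      exact hone u hu
    refine sup_le (le_fixed he hodd hz hx ?_) (le_fixed he hodd hz hy ?_)
    · refine eq_bot_iff.2 fun u hu => mem_bot.2 ((hone u (mem_sup_left hu.2) hu.1).resolve_right ?_)
      rintro rfl; exact hlx hu.2
    · refine eq_bot_iff.2 fun u hu => mem_bot.2 ((hone u (mem_sup_right hu.2) hu.1).resolve_right ?_)
      rintro rfl; exact hly hu.2
  · push Not at hone
    obtain ⟨l', hl'U, hl'z, h1, h2⟩ := hone
    have hzU : mv φ z ≤ U := by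
      intro u hu
      have hzl : φ z l ∈ U := by
        rcases hz.elems he hlz hl1 hl'z with e | e | e | e
        · exact absurd e h1
        · exact absurd e h2
        · exact e ▸ hl'U
        · have h := U.mul_mem hlU (e ▸ hl'U)
          rwa [← mul_assoc, he, one_mul] at h
      rcases hz.elems he hlz hl1 hu with rfl | rfl | rfl | rfl
      exacts [one_mem _, hlU, hzl, mul_mem hlU hzl]
    rintro _ ⟨u, hu, rfl⟩
    exact apply_mem_of_mv_le he z hzU hu

end Cfsg.Agent.Lib.FourMoved
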