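import Mathlib
import Cfsg.Agent.Lib.FourMoved.Space
import Cfsg.Agent.Lib.FourMoved.RankTwo

/-! Moved four-groups inside a finite group. -/

set_option autoImplicit false
open Subgroup
open scoped IsMulCommutative

namespace Cfsg.Agent.Lib.FourMoved

variable {G : Type*} [Group G] {M : Subgroup G} [M.Normal] [IsMulCommutative M]

/-- Conjugation on a normal abelian subgroup. -/
abbrev cj (M : Subgroup G) [M.Normal] : G →* MulAut ↥M := MulAut.conjNormal

theorem mv_commutator (hM2 : ∀ m : ↥M, m * m = 1) [Finite G] (q : G) :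
    (mv (M := ↥M) (cj M) q).map M.subtype = ⁅zpowers q, M⁆ := by
  refine le_antisymm ?_ ?_
  · rintro _ ⟨_, ⟨m, rfl⟩, rfl⟩
    show (((cj M q) m * m : ↥M) : G) ∈ _
    have h := commutator_mem_commutator (mem_zpowers q) m.2
    have hm : (m : G)⁻¹ = m := inv_eq_of_mul_eq_one_right (congrArg Subtype.val (hM2 m))
    rw [commutatorElement_def, hm] at h
    exact h
  · rw [commutator_le]
    intro g hg m hm
    obtain ⟨n, rfl⟩ := mem_powers_iff_mem_zpowers.2 hg
    refine ⟨cj M (q ^ n) ⟨m, hm⟩ * ⟨m, hm⟩, ?_, ?_⟩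
    · show cj M (q ^ n) ⟨m, hm⟩ * ⟨m, hm⟩ ∈ mv (cj M) q
      generalize (⟨m, hm⟩ : ↥M) = u
      clear hg
      induction n generalizing u with
      | zero => rw [pow_zero, map_one, MulAut.one_apply, hM2]; exact one_mem _
      | succ n ih =>
        have e : cj M (q ^ (n + 1)) u * u = cj M q (cj M (q ^ n) u * u) * (cj M q u * u) := by
          rw [pow_succ', map_mul, MulAut.mul_apply, map_mul, mul_assoc, ← mul_assoc (cj M q u), hM2, one_mul]
        rw [e]
        exact mul_mem (apply_mem_of_mv_le hM2 q le_rfl (ih u)) (mem_mv q u)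
    · have hm' : m⁻¹ = m := inv_eq_of_mul_eq_one_right (congrArg Subtype.val (hM2 ⟨m, hm⟩))
      rw [commutatorElement_def, hm']
      rfl

/-- An elementary abelian subgroup of order `r ^ 3` acting on a small set of `M` containing `W`
centralizes `W` noncyclically. -/
theorem not_cyclic_of_inv [Finite G] {r n : ℕ} [Fact r.Prime] (F : Subgroup G)
    (hF : Cfsg.IsElementaryAbelian r F) (hF3 : Nat.card F = r ^ 3) {W U : Subgroup ↥M} (hWU : W ≤ U)
    (hU : ∀ f ∈ F, U.map (cj M f).toMonoidHom = U) (hcard : Nat.card U ≤ n) (hn : ¬ r ^ 2 ∣ n.factorial) :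
    ¬ IsCyclic ↥(F ⊓ centralizer ((W.map M.subtype : Subgroup G) : Set G)) := by
  have hmem : ∀ (f : ↥F) (u : ↥U), cj M f u.1 ∈ U := fun f u => (hU f f.2).le (mem_map_of_mem _ u.2)
  let act : MulAction ↥F ↥U :=
    { smul := fun f u => ⟨cj M f u.1, hmem f u⟩
      one_smul := fun u => Subtype.ext (by show cj M ((1 : ↥F) : G) u.1 = u.1; simp)
      mul_smul := fun f g u => Subtype.ext (by
        show cj M ((f * g : ↥F) : G) u.1 = cj M f (cj M g u.1)
        rw [Subgroup.coe_mul, map_mul, MulAut.mul_apply]) }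
  letI := act
  set θ := MulAction.toPermHom ↥F ↥U with hθ
  have hpr : IsPGroup r ↥F := IsPGroup.of_card hF3
  obtain ⟨i, hi⟩ := IsPGroup.iff_card.1 (hpr.of_surjective θ.rangeRestrict θ.rangeRestrict_surjective)
  have hi1 : i ≤ 1 := by
    by_contra h
    refine hn ((pow_dvd_pow r (show 2 ≤ i by omega)).trans ?_)
    rw [← hi]
    refine (card_subgroup_dvd_card _).trans ?_
    rw [Nat.card_perm]
    exact Nat.factorial_dvd_factorial hcard
  have hker : r ^ 2 ≤ Nat.card θ.ker := by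
    have h := card_mul_index θ.ker
    rw [index_ker, hi, hF3] at h
    by_contra h'
    have h1 : Nat.card θ.ker * r ^ i < r ^ 2 * r ^ i :=
      (Nat.mul_lt_mul_right (pow_pos (Fact.out : r.Prime).pos i)).2 (not_le.1 h')
    rw [h, ← pow_add] at h1
    have := (Nat.pow_lt_pow_iff_right (Fact.out : r.Prime).one_lt).1 h1
    omega
  intro hc
  have hle : θ.ker.map F.subtype ≤ F ⊓ centralizer ((W.map M.subtype : Subgroup G) : Set G) := by
    rintro _ ⟨f, hf, rfl⟩
    refine ⟨f.2, mem_centralizer_iff.2 ?_⟩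
    rintro _ ⟨w, hw, rfl⟩
    have h1 : θ f ⟨w, hWU hw⟩ = ⟨w, hWU hw⟩ := by rw [MonoidHom.mem_ker.1 hf]; rfl
    have h2 : (cj M f w : ↥M) = w := congrArg Subtype.val h1
    have h3 : (f : G) * (w : G) * (f : G)⁻¹ = w := congrArg Subtype.val h2
    exact (mul_inv_eq_iff_eq_mul.1 h3).symm
  have h2 := card_le_of_le hle
  rw [card_map_of_injective F.subtype_injective] at h2
  obtain ⟨g, hg⟩ := IsCyclic.exists_generator (α := ↥(F ⊓ centralizer ((W.map M.subtype : Subgroup G) : Set G)))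
  have h3 := orderOf_eq_card_of_forall_mem_zpowers hg
  have h4 : orderOf g ≤ r := Nat.le_of_dvd (Fact.out : r.Prime).pos
    (orderOf_dvd_of_pow_eq_one (Subtype.ext (hF.2 g g.2.1)))
  have : r ^ 2 ≤ r := hker.trans (h2.trans (h3 ▸ h4))
  nlinarith [(Fact.out : r.Prime).two_le]

/-- A normal abelian subgroup of a `3`-group keeps a moved four-group. -/
theorem map_eq_of_normal_abelian [Finite G] (hM2 : ∀ m : ↥M, m * m = 1) (T : Subgroup G) (hT : IsPGroup 3 T)
    (A : Subgroup ↥T) [A.Normal] (hA : IsMulCommutative A) {q : ↥T} (hq : Four (cj M) (q : G))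
    {a : ↥T} (ha : a ∈ A) :
    (mv (cj M) (q : G)).map (cj M (a : G)).toMonoidHom = mv (cj M) (q : G) := by
  set φ := (cj M).comp T.subtype
  have hx : Four φ q := ⟨hq.cube, hq.card⟩
  have hy : Four φ (a * q * a⁻¹) := hx.conj a
  by_contra hne
  have hne' : mv φ q ≠ mv φ (a * q * a⁻¹) := by rw [mv_map]; exact Ne.symm hne
  have hmeet : mv φ q ⊓ mv φ (a * q * a⁻¹) = ⊥ := by
    by_contra h
    exact hne' (eq_of_meet hM2 hT hx hy h)
  have hodd : Odd (Nat.card ↥T) := by
    have : Fact (Nat.Prime 3) := ⟨Nat.prime_three⟩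
    obtain ⟨k, hk⟩ := IsPGroup.iff_card.1 hT
    rw [hk]
    exact Odd.pow (by decide)
  set y := a * q * a⁻¹
  set c := q⁻¹ * y
  have hc : c ∈ A := by
    have h := A.mul_mem ((inferInstance : A.Normal).conj_mem _ ha q⁻¹) (A.inv_mem ha)
    simpa [c, y, mul_assoc] using h
  have hac : a * c = c * a := congrArg Subtype.val (hA.is_comm.comm ⟨a, ha⟩ ⟨c, hc⟩)
  set z := a * y * a⁻¹ with hz'
  have hz : Four φ z := hy.conj a
  have hze : z = y * q⁻¹ * y := by
    rw [hz', show y = q * c by simp [c]]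
    calc a * (q * c) * a⁻¹ = a * q * a⁻¹ * (a * c * a⁻¹) := by group
      _ = a * q * a⁻¹ * c := by rw [hac, mul_inv_cancel_right]
      _ = q * c * q⁻¹ * (q * c) := by
        rw [show q * c = y by simp [c]]
        simp [y, c, mul_assoc]
  obtain ⟨a1, ha1, ha11⟩ := hx.exists_ne_one
  obtain ⟨b, hb, hb1⟩ := hy.exists_ne_one
  have fix1 : ∀ u ∈ mv φ q, φ y u = u :=
    fun u hu => fix_of_disjoint hM2 hodd hy hx (by rw [inf_comm]; exact hmeet) hu
  have fix2 : ∀ u ∈ mv φ y, φ q⁻¹ u = u := fun u hu => by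
    rw [map_inv, MulAut.inv_def]
    exact (φ q).injective (by rw [MulEquiv.apply_symm_apply, fix_of_disjoint hM2 hodd hx hy hmeet hu])
  have hinv : φ q⁻¹ a1 ∈ mv φ q := by
    have h : φ q⁻¹ = φ q ^ 2 := by
      rw [map_inv]; exact inv_eq_of_mul_eq_one_right (by rw [← pow_succ']; exact hx.cube)
    rw [h, pow_two, MulAut.mul_apply]
    exact apply_mem_of_mv_le hM2 q le_rfl (apply_mem_of_mv_le hM2 q le_rfl ha1)
  have e1 : φ z a1 = φ q⁻¹ a1 := by
    rw [hze, map_mul, map_mul, MulAut.mul_apply, MulAut.mul_apply, fix1 a1 ha1, fix1 _ hinv]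
  have e2 : φ z b = b * φ y b := by
    rw [hze, map_mul, map_mul, MulAut.mul_apply, MulAut.mul_apply,
      fix2 _ (apply_mem_of_mv_le hM2 y le_rfl hb), hy.sum hM2 hb]
  have m1x : φ z a1 * a1 ∈ mv φ q := by rw [e1]; exact mul_mem hinv ha1
  have hzinv : ∀ u ∈ mv φ q, φ z u ∈ mv φ q := by
    intro u hu
    have h : φ q⁻¹ u ∈ mv φ q := by
      have h : φ q⁻¹ = φ q ^ 2 := by
        rw [map_inv]; exact inv_eq_of_mul_eq_one_right (by rw [← pow_succ']; exact hx.cube)
      rw [h, pow_two, MulAut.mul_apply]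
      exact apply_mem_of_mv_le hM2 q le_rfl (apply_mem_of_mv_le hM2 q le_rfl hu)
    rw [hze, map_mul, map_mul, MulAut.mul_apply, MulAut.mul_apply, fix1 u hu, fix1 _ h]
    exact h
  have m11 : φ z a1 * a1 ≠ 1 := by
    rw [e1]
    intro h
    have h' : φ q⁻¹ a1 = a1 := (inv_unique (x := a1) (by rw [mul_comm]; exact h) (hM2 a1))
    refine ha11 (hx.eq_one hM2 ha1 ?_)
    have h2 := congrArg (φ q) h'
    rw [← MulAut.mul_apply, ← map_mul, mul_inv_cancel, map_one, MulAut.one_apply] at h2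
    exact h2.symm
  have m2y : φ z b * b ∈ mv φ q := by
    rcases hz.elems hM2 (mem_mv z a1) m11 (mem_mv z b) with e | e | e | e <;> rw [e]
    exacts [one_mem _, m1x, hzinv _ m1x, mul_mem m1x (hzinv _ m1x)]
  have e3 : φ z b * b = φ y b := by rw [e2, mul_comm b, mul_assoc, hM2, mul_one]
  refine hb1 ((φ y).injective ?_)
  rw [map_one]
  rw [e3] at m2y
  exact mem_bot.1 (hmeet ▸ ⟨m2y, apply_mem_of_mv_le hM2 y le_rfl hb⟩)

end Cfsg.Agent.Lib.FourMoved
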